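import Cfsg.Agent.H926.HT.AltFix
import Cfsg.Agent.H337.HT.Basics
import Cfsg.Agent.StandardComponent.AltAut
import Cfsg.Agent.S0892

/-!
# S3540, quasisimple rows: alternating groups of degree at least 21
-/

set_option autoImplicit false
set_option linter.unusedSectionVars false

namespace Cfsg.Agent.H926.HT

open Equiv Equiv.Perm Cfsg.Agent.H614.AMod Cfsg.Agent.H337.HT Cfsg.Agent.H828.HT
open Cfsg.Agent.H825.Spin (Dc inv_cube)

universe u w

section num

theorem bern (a n : ℕ) : a ^ (n + 1) + (n + 1) * a ^ n ≤ (a + 1) ^ (n + 1) := by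
  induction n with
  | zero => simp
  | succ n ih =>
    calc a ^ (n + 1 + 1) + (n + 1 + 1) * a ^ (n + 1)
        ≤ (a ^ (n + 1) + (n + 1) * a ^ n) * (a + 1) := by
          have h : (a ^ (n + 1) + (n + 1) * a ^ n) * (a + 1) =
            a ^ (n + 1 + 1) + (n + 1 + 1) * a ^ (n + 1) + (n + 1) * a ^ n := by ring
          rw [h]; exact Nat.le_add_right _ _
      _ ≤ (a + 1) ^ (n + 1) * (a + 1) := Nat.mul_le_mul_right _ ih
      _ = (a + 1) ^ (n + 1 + 1) := (pow_succ _ _).symm

theorem fac_le (m : ℕ) : 2 ^ m * m.factorial ≤ (m + 1) ^ m := by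
  induction m with
  | zero => simp
  | succ m ih =>
    have h1 := bern (m + 1) m
    have h2 : (m + 1) ^ (m + 1) + (m + 1) * (m + 1) ^ m = 2 * (m + 1) * (m + 1) ^ m := by ring
    rw [h2] at h1
    calc 2 ^ (m + 1) * (m + 1).factorial = 2 * (m + 1) * (2 ^ m * m.factorial) := by
          rw [Nat.factorial_succ]; ring
      _ ≤ 2 * (m + 1) * (m + 1) ^ m := Nat.mul_le_mul_left _ ih
      _ ≤ (m + 1 + 1) ^ (m + 1) := h1

theorem lt_two_mul {m n q A : ℕ} (hm : 1 ≤ m) (hq : m + 1 ≤ q) (hA : A ≤ m.factorial)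
    (h : 2 * q ^ (n - 2) < A ^ 2) : n < 2 * m := by
  by_contra hcon
  push Not at hcon
  have h1 : 2 * (m + 1) ^ (2 * m - 2) < m.factorial ^ 2 :=
    calc 2 * (m + 1) ^ (2 * m - 2) ≤ 2 * (m + 1) ^ (n - 2) :=
          Nat.mul_le_mul_left _ (Nat.pow_le_pow_right (by omega) (by omega))
      _ ≤ 2 * q ^ (n - 2) := Nat.mul_le_mul_left _ (Nat.pow_le_pow_left hq _)
      _ < A ^ 2 := h
      _ ≤ m.factorial ^ 2 := Nat.pow_le_pow_left hA 2
  have h2 : (2 ^ m * m.factorial) ^ 2 ≤ ((m + 1) ^ m) ^ 2 := Nat.pow_le_pow_left (fac_le m) 2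
  have h3 : ((m + 1) ^ m) ^ 2 = (m + 1) ^ 2 * (m + 1) ^ (2 * m - 2) := by
    rw [← pow_mul, ← pow_add]; congr 1; omega
  have h4 : m + 1 ≤ 2 ^ m := Nat.lt_pow_self (by norm_num)
  have h5 : (m + 1) ^ 2 ≤ (2 ^ m) ^ 2 := Nat.pow_le_pow_left h4 2
  have h6 : (2 ^ m) ^ 2 * (2 * (m + 1) ^ (2 * m - 2)) < (2 ^ m) ^ 2 * m.factorial ^ 2 :=
    Nat.mul_lt_mul_of_pos_left h1 (by positivity)
  rw [mul_pow, h3] at h2
  have h7 : (m + 1) ^ 2 * (m + 1) ^ (2 * m - 2) ≤ (2 ^ m) ^ 2 * (m + 1) ^ (2 * m - 2) := Nat.mul_le_mul_right _ h5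
  have h8 : 0 < (2 ^ m) ^ 2 * (m + 1) ^ (2 * m - 2) := by positivity
  have h9 : (2 ^ m) ^ 2 * (2 * (m + 1) ^ (2 * m - 2)) = 2 * ((2 ^ m) ^ 2 * (m + 1) ^ (2 * m - 2)) := by ring
  omega

theorem fac_three {m : ℕ} (hm : 3 ≤ m) : m.factorial ≤ m ^ 3 * (m - 3).factorial := by
  obtain ⟨k, rfl⟩ : ∃ k, m = k + 3 := ⟨m - 3, by omega⟩
  have h : (k + 3).factorial = (k + 3) * (k + 2) * (k + 1) * k.factorial := by
    rw [Nat.factorial_succ, Nat.factorial_succ, Nat.factorial_succ]; ring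
  rw [h, show k + 3 - 3 = k by omega]
  refine Nat.mul_le_mul_right _ ?_
  nlinarith [Nat.zero_le k]

theorem final_num {m n q mG h A N : ℕ} (hm : 21 ≤ m) (hq : m + 1 ≤ q) (hn : 12 ≤ n) (hh : 0 < h)
    (hA : A ≤ m.factorial) (hG : N ≤ (q - 1) * A) (hmh : mG * h = N) (hst : (m - 3).factorial ≤ 2 * h)
    (hV : q ^ n ≤ 2 * mG ^ 2) : False := by
  have h1 : mG * h ≤ (2 * q * m ^ 3) * h :=
    calc mG * h ≤ (q - 1) * A := by rw [hmh]; exact hG
      _ ≤ q * m.factorial := Nat.mul_le_mul (Nat.sub_le _ _) hA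
      _ ≤ q * (m ^ 3 * (m - 3).factorial) := Nat.mul_le_mul_left _ (fac_three (by omega))
      _ ≤ q * (m ^ 3 * (2 * h)) := Nat.mul_le_mul_left _ (Nat.mul_le_mul_left _ hst)
      _ = (2 * q * m ^ 3) * h := by ring
  have h2 : mG ≤ 2 * q * m ^ 3 := Nat.le_of_mul_le_mul_right h1 hh
  have h3 : mG ≤ 2 * q ^ 4 := h2.trans (by
    calc 2 * q * m ^ 3 ≤ 2 * q * q ^ 3 := Nat.mul_le_mul_left _ (Nat.pow_le_pow_left (by omega) 3)
      _ = 2 * q ^ 4 := by ring)
  have h4 : q ^ n ≤ 8 * q ^ 8 :=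
    calc q ^ n ≤ 2 * mG ^ 2 := hV
      _ ≤ 2 * (2 * q ^ 4) ^ 2 := Nat.mul_le_mul_left _ (Nat.pow_le_pow_left h3 2)
      _ = 8 * q ^ 8 := by ring
  have h5 : q ^ 12 ≤ q ^ n := Nat.pow_le_pow_right (by omega) hn
  have h6 : 8 * q ^ 8 < q ^ 9 := by
    rw [pow_succ' q 8]
    exact Nat.mul_lt_mul_of_pos_right (by omega) (pow_pos (by omega) 8)
  have h7 : q ^ 9 ≤ q ^ 12 := Nat.pow_le_pow_right (by omega) (by norm_num)
  omega

end num

/-- the representation of a group of linear maps -/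
def rep {p : ℕ} {K : Type w} [Field K] {V : Type u} [AddCommGroup V] [Module (ZMod p) V] [Module K V]
    (L : Subgroup (V ≃ₗ[ZMod p] V)) (hlin : ∀ l ∈ L, ∀ (c : K) (v : V), l (c • v) = c • l v) : Representation K L V where
  toFun l :=
    { toFun := fun v => (l : V ≃ₗ[ZMod p] V) v
      map_add' := fun v w => map_add _ v w
      map_smul' := fun c v => hlin l l.2 c v }
  map_one' := rfl
  map_mul' := fun a b => rfl

theorem card_mulAut_le {m : ℕ} (hm : 7 ≤ m) {S : Type*} [Group S] (e : S ≃* alternatingGroup (Fin m)) :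
    Nat.card (MulAut S) ≤ m.factorial := by
  classical
  obtain ⟨ψ, hψ⟩ := StandardComponent.AltAut.exists_autHom m hm
  have hinj : Function.Injective ψ := by
    intro a b hab
    ext x : 1
    apply Subtype.ext
    rw [hψ, hψ, hab]
  have h1 : Nat.card (MulAut (alternatingGroup (Fin m))) ≤ Nat.card (Equiv.Perm (Fin m)) :=
    Nat.card_le_card_of_injective ψ hinj
  rw [Nat.card_congr (MulAut.congr e).toEquiv]
  refine h1.trans (le_of_eq ?_)
  rw [Nat.card_eq_fintype_card, Fintype.card_perm, Fintype.card_fin]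

/-- a central extension of an alternating group of large degree -/
theorem exists_dc {P : Type*} [Group P] [Finite P] (hP : commutator P = ⊤) {m : ℕ} (hm : 8 ≤ m)
    (e : (P ⧸ Subgroup.center P) ≃* alternatingGroup (Fin m)) :
    ∃ (π : P →* Perm (Fin m)) (z : P), Dc π z := by
  have hc : Nat.card (Subgroup.center P) ≤ 2 :=
    S0892.result m (by omega) (by omega) (by omega) (Subgroup.center P) le_rfl (by rw [hP]; exact le_top) e
  obtain ⟨z, hz, hzz, hz'⟩ : ∃ z ∈ Subgroup.center P, z * z = 1 ∧ ∀ x ∈ Subgroup.center P, x = 1 ∨ x = z := by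
    have h1 : Nat.card (Subgroup.center P) = 1 ∨ Nat.card (Subgroup.center P) = 2 := by
      have : 0 < Nat.card (Subgroup.center P) := Nat.card_pos
      omega
    rcases h1 with h1 | h1
    · have h2 := Subgroup.card_eq_one.1 h1
      exact ⟨1, Subgroup.one_mem _, one_mul _, fun x hx => Or.inl (by rw [h2] at hx; exact Subgroup.mem_bot.1 hx)⟩
    · obtain ⟨x, hx, hxu⟩ := (Nat.card_eq_two_iff' (1 : Subgroup.center P)).1 h1
      refine ⟨x, x.2, ?_, fun y hy => ?_⟩
      · by_contra h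
        have h2 : x * x ≠ 1 := fun h3 => h (congrArg Subtype.val h3)
        exact hx (mul_eq_left.1 (hxu (x * x) h2))
      · by_cases h2 : (⟨y, hy⟩ : Subgroup.center P) = 1
        · exact Or.inl (congrArg Subtype.val h2)
        · exact Or.inr (congrArg Subtype.val (hxu _ h2))
  let π : P →* Perm (Fin m) :=
    (alternatingGroup (Fin m)).subtype.comp (e.toMonoidHom.comp (QuotientGroup.mk' (Subgroup.center P)))
  have hk : ∀ x, π x = 1 → x ∈ Subgroup.center P := by
    intro x hx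
    change ((e (QuotientGroup.mk' _ x) : alternatingGroup (Fin m)) : Perm (Fin m)) = 1 at hx
    rw [← Subgroup.coe_one (alternatingGroup (Fin m)), Subtype.coe_inj, e.map_eq_one_iff, ← MonoidHom.mem_ker,
      QuotientGroup.ker_mk'] at hx
    exact hx
  refine ⟨π, z, hzz, fun x => ?_, ?_, fun x hx => hz' x (hk x hx), fun c hc => ?_⟩
  · exact ((Subgroup.mem_center_iff.1 hz) x).symm
  · change ((e (QuotientGroup.mk' _ z) : alternatingGroup (Fin m)) : Perm (Fin m)) = 1
    have h1 : QuotientGroup.mk' (Subgroup.center P) z = 1 := (QuotientGroup.eq_one_iff z).2 hz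
    rw [h1, map_one]
    rfl
  · obtain ⟨x, hx⟩ := QuotientGroup.mk'_surjective (Subgroup.center P) (e.symm ⟨c, mem_alternatingGroup.2 hc⟩)
    refine ⟨x, ?_⟩
    change ((e (QuotientGroup.mk' _ x) : alternatingGroup (Fin m)) : Perm (Fin m)) = c
    rw [hx, e.apply_symm_apply]

variable {p : ℕ} [hp : Fact p.Prime] {K : Type w} [Field K] {V : Type u} [AddCommGroup V] [Module (ZMod p) V] [Finite V]
    [Module K V] {G L : Subgroup (V ≃ₗ[ZMod p] V)} {h : ℕ}

/-- the characteristic is larger than the degree -/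
theorem lt_of_alt (H : QS p K V G L h) {m : ℕ} (hm : 4 ≤ m)
    (e : (L ⧸ Subgroup.center L) ≃* alternatingGroup (Fin m)) : m < p := by
  by_contra hcon
  push Not at hcon
  have h0 : ¬ p ∣ Nat.card (alternatingGroup (Fin m)) := by
    intro hd
    rw [← Nat.card_congr e.toEquiv] at hd
    exact H.cop (hd.trans (H.card_quot_dvd_L.trans H.card_L_dvd))
  have : Nontrivial (Fin m) := Fin.nontrivial_iff_two_le.2 (by omega)
  have h1 : 2 * Nat.card (alternatingGroup (Fin m)) = m.factorial := by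
    rw [Nat.card_eq_fintype_card, two_mul_card_alternatingGroup, Fintype.card_perm, Fintype.card_fin]
  by_cases h2 : p = 2
  · have h3 : Nat.factorial 4 ∣ m.factorial := Nat.factorial_dvd_factorial hm
    rw [← h1, show Nat.factorial 4 = 2 * 12 from rfl] at h3
    have h4 : 12 ∣ Nat.card (alternatingGroup (Fin m)) := Nat.dvd_of_mul_dvd_mul_left (by norm_num) h3
    apply h0
    rw [h2]
    exact (by norm_num : (2 : ℕ) ∣ 12).trans h4
  · have h3 : p ∣ 2 * Nat.card (alternatingGroup (Fin m)) := by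
      rw [h1]; exact (Nat.Prime.dvd_factorial hp.out).2 hcon
    rcases (Nat.Prime.dvd_mul hp.out).1 h3 with h4 | h4
    · exact h2 ((Nat.prime_dvd_prime_iff_eq hp.out Nat.prime_two).1 h4)
    · exact h0 h4

/-- **Alternating groups of degree at least 21 do not occur.** -/
theorem alt_big (H : QS p K V G L h) {m : ℕ} (hm : 21 ≤ m)
    (e : (L ⧸ Subgroup.center L) ≃* alternatingGroup (Fin m)) : False := by
  have hK := H.finiteK
  have hfd := H.finiteDim
  obtain ⟨π, z, D⟩ := exists_dc H.perf (by omega) e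
  have hpm := lt_of_alt H (by omega) e
  have hch := H.charP
  have h3 : (3 : K) ≠ 0 := by
    intro h0
    have h1 : ((3 : ℕ) : K) = 0 := by exact_mod_cast h0
    have h2 := Nat.le_of_dvd (by norm_num) ((CharP.cast_eq_zero_iff K p 3).1 h1)
    omega
  have hq : m + 1 ≤ Nat.card K := by
    obtain ⟨k, hk, hk0⟩ := H.exists_card
    rw [hk]
    exact (show m + 1 ≤ p by omega).trans (Nat.le_self_pow hk0.ne' p)
  have hA := card_mulAut_le (by omega : 7 ≤ m) e
  set ρ := rep (K := K) L H.lin with hρ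
  have hne : ∀ e : Fin 3 ↪ Fin m, ρ (y3 D e) ≠ 1 := by
    intro e he
    have h1 : y3 D e = 1 := by
      apply Subtype.ext
      apply LinearEquiv.ext
      intro v
      exact LinearMap.congr_fun he v
    have h2 := y3_map D e
    rw [h1, map_one] at h2
    have h4 : T3 e (e 0) = e 1 := by
      rw [T3, Perm.mul_apply, swap_apply_of_ne_of_ne (e.injective.ne (by decide)) (e.injective.ne (by decide)),
        swap_apply_left]
    rw [← h2, Perm.one_apply] at h4
    exact absurd (e.injective h4) (by decide)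
  have hk : 3 * ((m - 2) / 3) + 2 ≤ Fintype.card (Fin m) := by rw [Fintype.card_fin]; omega
  have hk6 : 6 ≤ (m - 2) / 3 := by omega
  have hn12 : 12 ≤ Module.finrank K V := by
    have := finrank_ge ρ D h3 hk6 hk hne
    omega
  have hn2 : Module.finrank K V < 2 * m :=
    lt_two_mul (by omega) hq hA ((H.cand (one_dvd _)).pow_lt (by omega) H.two_le_card Nat.card_pos)
  obtain ⟨v, hv, hst⟩ := exists_stv ρ D h3 hk6 hk (by omega) hne
  rw [Fintype.card_fin] at hst
  obtain ⟨mG, hmG, -⟩ := exists_m H.half H.exists_ne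
  have h0 : 0 < h := by have := H.two_le; omega
  have h5 : Nat.card (stv ρ v) ≤ h := by
    rw [← H.half v hv]
    refine Nat.card_le_card_of_injective
      (fun g : stv ρ v => (⟨⟨(g : L), H.le (g : L).2⟩, g.2⟩ : MulAction.stabilizer G v)) ?_
    intro a b hab
    apply Subtype.ext
    apply Subtype.ext
    exact congrArg (fun x : MulAction.stabilizer G v => ((x : G) : V ≃ₗ[ZMod p] V)) hab
  have h6 : Nat.card G ≤ (Nat.card K - 1) * Nat.card (MulAut (L ⧸ Subgroup.center L)) :=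
    Nat.le_of_dvd (Nat.mul_pos (by have := H.two_le_card; omega) Nat.card_pos) H.card_G_dvd
  have h7 : Nat.card K ^ Module.finrank K V ≤ 2 * mG ^ 2 := by
    rw [← H.card_V]
    exact card_le H.cop H.half H.two_le hmG
  exact final_num hm hq hn12 h0 hA h6 hmG (hst.trans (Nat.mul_le_mul_left 2 h5)) h7

end Cfsg.Agent.H926.HT
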