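import Cfsg.Agent.H926.HT.AltWt

/-!
# Modules of small dimension of alternating groups and their double covers: a vector with a large stabiliser
-/

set_option autoImplicit false
set_option linter.unusedSectionVars false

namespace Cfsg.Agent.H926.HT

open Equiv Equiv.Perm Cfsg.Agent.H614.AMod
open Cfsg.Agent.H825.Spin (Dc inv_cube)

variable {P : Type*} [Group P] {α : Type*} [Fintype α] [DecidableEq α] {π : P →* Perm α} {z : P}

/-- any two pairs of disjoint 3-cycles are conjugate -/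
theorem exists_pair (D : Dc π z) (h8 : 8 ≤ Fintype.card α) (e0 e1 e' : Fin 3 ↪ α) (h1 : ∀ i j, e0 i ≠ e1 j)
    (h' : ∀ i j, e0 i ≠ e' j) : ∃ g : P, g * y3 D e0 * g⁻¹ = y3 D e0 ∧ g * y3 D e1 * g⁻¹ = y3 D e' := by
  let f : Fin 3 ⊕ Fin 3 ↪ α := ⟨Sum.elim e0 e1, e0.injective.sumElim e1.injective h1⟩
  let f' : Fin 3 ⊕ Fin 3 ↪ α := ⟨Sum.elim e0 e', e0.injective.sumElim e'.injective h'⟩
  obtain ⟨g0, hg0, hg⟩ := exists_even (by simp; omega) f f'
  obtain ⟨g, rfl⟩ := D.surj g0 hg0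
  exact ⟨g, y3_conj D e0 e0 g fun i => hg (Sum.inl i), y3_conj D e1 e' g fun i => hg (Sum.inr i)⟩

variable {K : Type*} [Field K] {V : Type*} [AddCommGroup V] [Module K V] [FiniteDimensional K V]

/-- the stabiliser of a vector -/
def stv (ρ : Representation K P V) (v : V) : Subgroup P where
  carrier := {g | ρ g v = v}
  one_mem' := rho_one ρ v
  mul_mem' := fun {a b} ha hb => by
    change ρ (a * b) v = v
    rw [rho_mul, hb, ha]
  inv_mem' := fun {a} ha => by
    change ρ a⁻¹ v = v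
    have h1 := rho_inv_self ρ a v
    have h2 : ρ a v = v := ha
    rwa [h2] at h1

theorem mem_stv {ρ : Representation K P V} {v : V} {g : P} : g ∈ stv ρ v ↔ ρ g v = v := Iff.rfl

theorem disj_all (ρ : Representation K P V) (D : Dc π z) (h3 : (3 : K) ≠ 0) {k : ℕ} (hk6 : 6 ≤ k)
    (hk : 3 * k + 2 ≤ Fintype.card α) (hn : Module.finrank K V < 6 * k + 8) :
    ∃ e0 : Fin 3 ↪ α, ∀ e' : Fin 3 ↪ α, (∀ i j, e0 i ≠ e' j) → y3 D e' ∈ pst ρ (U ρ (y3 D e0)) := by
  obtain ⟨p⟩ : Nonempty (Fin k × Fin 3 ↪ α) :=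
    Function.Embedding.nonempty_of_card_le (by simp; omega)
  have h3' : (3 : AlgebraicClosure K) ≠ 0 := by
    have h := (algebraMap K (AlgebraicClosure K)).injective.ne h3
    rwa [map_ofNat, map_zero] at h
  have h01 : (⟨0, by omega⟩ : Fin k) ≠ ⟨1, by omega⟩ := by simp
  have h1 := pst_of_bc ρ (disj_of_small (bc ρ) D h3' hk6 hk (by rw [finrank_bc]; exact hn) p h01)
  refine ⟨blk p ⟨0, by omega⟩, fun e' he' => ?_⟩
  obtain ⟨g, hg0, hg1⟩ := exists_pair D (by omega) (blk p ⟨0, by omega⟩) (blk p ⟨1, by omega⟩) e' (fun i j hij => by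
    have := (Prod.ext_iff.1 (p.injective hij)).1
    exact h01 this) he'
  have h2 := pst_conj ρ (h := g) h1
  rwa [hg0, hg1] at h2

theorem finrank_ge (ρ : Representation K P V) (D : Dc π z) (h3 : (3 : K) ≠ 0) {k : ℕ} (hk6 : 6 ≤ k)
    (hk : 3 * k + 2 ≤ Fintype.card α) (hne : ∀ e : Fin 3 ↪ α, ρ (y3 D e) ≠ 1) : 2 * k ≤ Module.finrank K V := by
  obtain ⟨p⟩ : Nonempty (Fin k × Fin 3 ↪ α) :=
    Function.Embedding.nonempty_of_card_le (by simp; omega)
  have h3' : (3 : AlgebraicClosure K) ≠ 0 := by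
    have h := (algebraMap K (AlgebraicClosure K)).injective.ne h3
    rwa [map_ofNat, map_zero] at h
  have h1 := le_finrank (bc ρ) D h3' hk6 hk p (i := ⟨0, by omega⟩) (fun h => hne (blk p ⟨0, by omega⟩) ?_)
  · rwa [finrank_bc] at h1
  · ext v
    have h2 : bc ρ (y3 D (blk p ⟨0, by omega⟩)) (1 ⊗ₜ v) = 1 ⊗ₜ v := by rw [h]; rfl
    rw [bc_tmul] at h2
    exact one_tmul_inj h2

/-- **A vector with a large stabiliser** -/
theorem exists_stv [Finite P] (ρ : Representation K P V) (D : Dc π z) (h3 : (3 : K) ≠ 0) {k : ℕ} (hk6 : 6 ≤ k)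
    (hk : 3 * k + 2 ≤ Fintype.card α) (hn : Module.finrank K V < 6 * k + 8)
    (hne : ∀ e : Fin 3 ↪ α, ρ (y3 D e) ≠ 1) :
    ∃ v : V, v ≠ 0 ∧ (Fintype.card α - 3).factorial ≤ 2 * Nat.card (stv ρ v) := by
  classical
  obtain ⟨e0, he0⟩ := disj_all ρ D h3 hk6 hk hn
  obtain ⟨u, hu⟩ : ∃ u, ρ (y3 D e0) u ≠ u := by
    by_contra hcon
    push Not at hcon
    exact hne e0 (LinearMap.ext hcon)
  set v := ρ (y3 D e0) u - u with hv
  have hvU : v ∈ U ρ (y3 D e0) := sub_mem_U ρ _ u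
  refine ⟨v, sub_ne_zero.2 hu, ?_⟩
  have hst : ∀ e' : Fin 3 ↪ α, (∀ i j, e0 i ≠ e' j) → y3 D e' ∈ stv ρ v := fun e' he' => he0 e' he' v hvU
  -- the image of the stabiliser contains all even permutations fixing the three points
  set S : Set α := {x | x ∉ Set.range e0} with hS
  have hcard : Fintype.card {x // x ∉ Set.range e0} = Fintype.card α - 3 := by
    rw [Fintype.card_subtype_compl, ← Set.toFinset_card, Set.toFinset_range, Finset.card_image_of_injective _ e0.injective]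
    simp
  obtain ⟨x, hx, y, hy, hxy⟩ : ∃ x ∈ S, ∃ y ∈ S, x ≠ y := by
    have h1 : 1 < Fintype.card {x // x ∉ Set.range e0} := by rw [hcard]; omega
    obtain ⟨x, y, hxy⟩ := Fintype.exists_pair_of_one_lt_card h1
    exact ⟨x, x.2, y, y.2, fun h => hxy (Subtype.ext h)⟩
  have hm' := mem_of_cyc (α := α) (((stv ρ v).map π).comap (alternatingGroup α).subtype) S hx hy hxy (fun e h0 h1 h2 => by
    refine ⟨y3 D e, hst e ?_, ?_⟩
    · intro i j hij
      have h4 : e j ∈ S := by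
        have : j = 0 ∨ j = 1 ∨ j = 2 := by fin_cases j <;> simp
        rcases this with rfl | rfl | rfl
        · rw [h0]; exact hx
        · rw [h1]; exact hy
        · exact h2
      exact h4 ⟨i, hij⟩
    · rw [y3_map]
      exact (coe_c3 e).symm)
  have key : ∀ σ : alternatingGroup {x // x ∉ Set.range e0}, (Perm.ofSubtype (σ : Perm {x // x ∉ Set.range e0}) : Perm α) ∈
      (stv ρ v).map π := by
    intro σ
    have h1 : (Perm.ofSubtype (σ : Perm {x // x ∉ Set.range e0}) : Perm α) ∈ alternatingGroup α := by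
      rw [mem_alternatingGroup, Perm.sign_ofSubtype]
      exact mem_alternatingGroup.1 σ.2
    exact hm' ⟨_, h1⟩ (fun w hw => Perm.ofSubtype_apply_of_not_mem _ hw)
  have h5 : Nat.card (alternatingGroup {x // x ∉ Set.range e0}) ≤ Nat.card ((stv ρ v).map π) := by
    refine Nat.card_le_card_of_injective (fun σ => ⟨_, key σ⟩) fun σ τ h => ?_
    exact Subtype.ext (Perm.ofSubtype_injective (congrArg Subtype.val h))
  have h6 : Nat.card ((stv ρ v).map π) ≤ Nat.card (stv ρ v) :=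
    Nat.card_le_card_of_surjective (fun g : stv ρ v => (⟨π g, ⟨g, g.2, rfl⟩⟩ : (stv ρ v).map π)) (by
      rintro ⟨_, g, hg, rfl⟩
      exact ⟨⟨g, hg⟩, rfl⟩)
  have h7 : 2 * Nat.card (alternatingGroup {x // x ∉ Set.range e0}) = (Fintype.card α - 3).factorial := by
    have : Nontrivial {x // x ∉ Set.range e0} := ⟨⟨x, hx⟩, ⟨y, hy⟩, fun h => hxy (congrArg Subtype.val h)⟩
    rw [Nat.card_eq_fintype_card, two_mul_card_alternatingGroup, Fintype.card_perm, hcard]
  rw [← h7]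
  exact Nat.mul_le_mul_left 2 (h5.trans h6)

end Cfsg.Agent.H926.HT
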